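import Mathlib

/-!
# Binary actions on cosets: the star criterion
-/

set_option autoImplicit false
set_option linter.unusedVariables false
set_option linter.unusedSectionVars false

namespace Cfsg.Agent.Lib.Bin77

open Subgroup

variable {G G' : Type*} [Group G] [Group G']

/-- The action on the cosets of `H` is binary (relational complexity two). -/
def Bin (H : Subgroup G) : Prop :=
  ∀ (n : ℕ) (I J : Fin n → G ⧸ H), 2 ≤ n →
    (∀ i j : Fin n, i ≠ j → ∃ g : G, g • I i = J i ∧ g • I j = J j) → ∃ g : G, ∀ i, g • I i = J i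

/-- The star criterion: each coset `a H` has an element fixing every point fixed by some element
of the coset. -/
def Star (H : Subgroup G) : Prop :=
  ∀ a : G, ∃ g : G, a⁻¹ * g ∈ H ∧ ∀ x y : G, a⁻¹ * y ∈ H → x⁻¹ * y * x ∈ H → x⁻¹ * g * x ∈ H

lemma smul_mk_eq_iff {H : Subgroup G} (y x : G) :
    y • (x : G ⧸ H) = (x : G ⧸ H) ↔ x⁻¹ * y * x ∈ H := by
  have : y • (x : G ⧸ H) = ((y * x : G) : G ⧸ H) := rfl
  rw [this, eq_comm, QuotientGroup.eq]
  have e : x⁻¹ * (y * x) = x⁻¹ * y * x := by group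
  rw [e]

lemma star_of_bin [Finite G] {H : Subgroup G} (hB : Bin H) : Star H := by
  classical
  intro a
  let P : G ⧸ H → Prop := fun ω => ∃ y : G, a⁻¹ * y ∈ H ∧ y • ω = ω
  by_cases hS : ∃ ω, P ω
  · haveI : Fintype (G ⧸ H) := Fintype.ofFinite _
    let T := Option {ω : G ⧸ H // P ω}
    haveI : Nonempty {ω : G ⧸ H // P ω} := by
      obtain ⟨ω, hω⟩ := hS
      exact ⟨⟨ω, hω⟩⟩
    have hcard : 2 ≤ Fintype.card T := by
      have : Fintype.card T = Fintype.card {ω : G ⧸ H // P ω} + 1 := Fintype.card_option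
      have h1 : 0 < Fintype.card {ω : G ⧸ H // P ω} := Fintype.card_pos
      omega
    let e : Fin (Fintype.card T) ≃ T := (Fintype.equivFin T).symm
    let I : Fin (Fintype.card T) → G ⧸ H := fun i => match e i with
      | none => ((1 : G) : G ⧸ H)
      | some ω => ω.1
    let J : Fin (Fintype.card T) → G ⧸ H := fun i => match e i with
      | none => ((a : G) : G ⧸ H)
      | some ω => ω.1
    have hI0 : ∀ i, e i = none → I i = ((1 : G) : G ⧸ H) := by
      intro i h
      simp only [I, h]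
    have hJ0 : ∀ i, e i = none → J i = ((a : G) : G ⧸ H) := by
      intro i h
      simp only [J, h]
    have hI1 : ∀ i (ω : {ω : G ⧸ H // P ω}), e i = some ω → I i = ω.1 := by
      intro i ω h
      simp only [I, h]
    have hJ1 : ∀ i (ω : {ω : G ⧸ H // P ω}), e i = some ω → J i = ω.1 := by
      intro i ω h
      simp only [J, h]
    have hy : ∀ y : G, a⁻¹ * y ∈ H → y • ((1 : G) : G ⧸ H) = ((a : G) : G ⧸ H) := by
      intro y hy
      have : y • ((1 : G) : G ⧸ H) = ((y * 1 : G) : G ⧸ H) := rfl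
      rw [this, mul_one, eq_comm, QuotientGroup.eq]
      exact hy
    have hpair : ∀ i j : Fin (Fintype.card T), i ≠ j → ∃ g : G, g • I i = J i ∧ g • I j = J j := by
      intro i j hij
      rcases hi : e i with _ | ω₁ <;> rcases hj : e j with _ | ω₂
      · exact absurd (e.injective (hi.trans hj.symm)) hij
      · obtain ⟨y, hy1, hy2⟩ := ω₂.2
        refine ⟨y, ?_, ?_⟩
        · rw [hI0 i hi, hJ0 i hi]
          exact hy y hy1
        · rw [hI1 j ω₂ hj, hJ1 j ω₂ hj]
          exact hy2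
      · obtain ⟨y, hy1, hy2⟩ := ω₁.2
        refine ⟨y, ?_, ?_⟩
        · rw [hI1 i ω₁ hi, hJ1 i ω₁ hi]
          exact hy2
        · rw [hI0 j hj, hJ0 j hj]
          exact hy y hy1
      · refine ⟨1, ?_, ?_⟩
        · rw [hI1 i ω₁ hi, hJ1 i ω₁ hi, one_smul]
        · rw [hI1 j ω₂ hj, hJ1 j ω₂ hj, one_smul]
    obtain ⟨g, hg⟩ := hB _ I J hcard hpair
    refine ⟨g, ?_, ?_⟩
    · have h0 := hg (e.symm none)
      rw [hI0 _ (by simp), hJ0 _ (by simp)] at h0
      have : g • ((1 : G) : G ⧸ H) = ((g * 1 : G) : G ⧸ H) := rfl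
      rw [this, mul_one, eq_comm, QuotientGroup.eq] at h0
      exact h0
    · intro x y hy1 hy2
      have hP : P (x : G ⧸ H) := ⟨y, hy1, (smul_mk_eq_iff y x).mpr hy2⟩
      have h0 := hg (e.symm (some ⟨_, hP⟩))
      rw [hI1 _ ⟨_, hP⟩ (by simp), hJ1 _ ⟨_, hP⟩ (by simp)] at h0
      exact (smul_mk_eq_iff g x).mp h0
  · refine ⟨a, by simp [H.one_mem], ?_⟩
    intro x y hy1 hy2
    exact absurd ⟨_, y, hy1, (smul_mk_eq_iff y x).mpr hy2⟩ hS

/-- Transport of `Star` along a surjective homomorphism (preimages). -/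
lemma Star.comap {H : Subgroup G'} (hS : Star H) (f : G →* G') (hf : Function.Surjective f) :
    Star (H.comap f) := by
  intro a
  obtain ⟨g', hg1, hg2⟩ := hS (f a)
  obtain ⟨g, rfl⟩ := hf g'
  refine ⟨g, ?_, ?_⟩
  · simpa [Subgroup.mem_comap] using hg1
  · intro x y hy1 hy2
    have := hg2 (f x) (f y) (by simpa [Subgroup.mem_comap] using hy1)
      (by simpa [Subgroup.mem_comap] using hy2)
    simpa [Subgroup.mem_comap] using this

/-- Transport of `Star` along an isomorphism. -/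
lemma Star.map_equiv {H : Subgroup G} (hS : Star H) (φ : G ≃* G') :
    Star (H.map (φ : G →* G')) := by
  have hmem : ∀ z : G, φ z ∈ H.map (φ : G →* G') ↔ z ∈ H := by
    intro z
    constructor
    · rintro ⟨w, hw, hwz⟩
      have : w = z := φ.injective hwz
      exact this ▸ hw
    · intro hz
      exact ⟨z, hz, rfl⟩
  intro a
  obtain ⟨g, hg1, hg2⟩ := hS (φ.symm a)
  refine ⟨φ g, ?_, ?_⟩
  · have : a⁻¹ * φ g = φ ((φ.symm a)⁻¹ * g) := by simp
    rw [this, hmem]
    exact hg1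
  · intro x y hy1 hy2
    have e1 : x⁻¹ * φ g * x = φ ((φ.symm x)⁻¹ * g * φ.symm x) := by simp
    rw [e1, hmem]
    apply hg2 (φ.symm x) (φ.symm y)
    · rw [← hmem]
      simpa using hy1
    · rw [← hmem]
      simpa using hy2

/-- Conjugates of a subgroup satisfying `Star`. -/
def conjSub (c : G) (H : Subgroup G) : Subgroup G := H.map (MulAut.conj c).toMonoidHom

lemma mem_conjSub {c : G} {H : Subgroup G} {z : G} : z ∈ conjSub c H ↔ c⁻¹ * z * c ∈ H := by
  constructor
  · rintro ⟨w, hw, rfl⟩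
    simpa [mul_assoc] using hw
  · intro hz
    refine ⟨c⁻¹ * z * c, hz, ?_⟩
    simp [mul_assoc]

lemma Star.conj {H : Subgroup G} (hS : Star H) (c : G) : Star (conjSub c H) :=
  hS.map_equiv (MulAut.conj c)

/-- Centralising elements enlarge the fixed set. -/
lemma Star.cent {H : Subgroup G} {a g : G}
    (h : ∀ x y : G, a⁻¹ * y ∈ H → x⁻¹ * y * x ∈ H → x⁻¹ * g * x ∈ H)
    {x y : G} (hy1 : a⁻¹ * y ∈ H) (c : G) (hy2 : x⁻¹ * (c⁻¹ * y * c) * x ∈ H) :
    x⁻¹ * (c⁻¹ * g * c) * x ∈ H := by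
  have e1 : (c * x)⁻¹ * y * (c * x) = x⁻¹ * (c⁻¹ * y * c) * x := by group
  have e2 : (c * x)⁻¹ * g * (c * x) = x⁻¹ * (c⁻¹ * g * c) * x := by group
  rw [← e2]
  apply h _ _ hy1
  rw [e1]
  exact hy2

/-- Transport of `Bin` along an isomorphism. -/
lemma Bin.map_equiv {H : Subgroup G} (hB : Bin H) (φ : G ≃* G') : Bin (H.map (φ : G →* G')) := by
  classical
  intro n I J hn hp
  have hmem : ∀ z : G, φ z ∈ H.map (φ : G →* G') ↔ z ∈ H := by
    intro z
    constructor
    · rintro ⟨w, hw, hwz⟩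
      have : w = z := φ.injective hwz
      exact this ▸ hw
    · intro hz
      exact ⟨z, hz, rfl⟩
  let q : G' ⧸ H.map (φ : G →* G') → G ⧸ H := fun ω => ((φ.symm ω.out : G) : G ⧸ H)
  let r : G ⧸ H → G' ⧸ H.map (φ : G →* G') := fun ω => ((φ ω.out : G') : G' ⧸ H.map (φ : G →* G'))
  have hq_mk : ∀ z : G', q (z : G' ⧸ H.map (φ : G →* G')) = ((φ.symm z : G) : G ⧸ H) := by
    intro z
    simp only [q]
    rw [QuotientGroup.eq]
    have h1 : ((z : G' ⧸ H.map (φ : G →* G')).out)⁻¹ * z ∈ H.map (φ : G →* G') := by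
      rw [← QuotientGroup.eq]
      simp
    have e : ((φ.symm (z : G' ⧸ H.map (φ : G →* G')).out))⁻¹ * φ.symm z
        = φ.symm (((z : G' ⧸ H.map (φ : G →* G')).out)⁻¹ * z) := by simp
    rw [e, ← hmem]
    simpa using h1
  have hq_smul : ∀ (g' : G') ω, q (g' • ω) = φ.symm g' • q ω := by
    intro g' ω
    induction ω using QuotientGroup.induction_on with
    | H z =>
      have : g' • (z : G' ⧸ H.map (φ : G →* G')) = ((g' * z : G') : G' ⧸ H.map (φ : G →* G')) := rfl
      rw [this, hq_mk, hq_mk, map_mul]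
      rfl
  have hq_inj : Function.Injective q := by
    intro ω₁ ω₂ h
    induction ω₁ using QuotientGroup.induction_on with
    | H z₁ =>
      induction ω₂ using QuotientGroup.induction_on with
      | H z₂ =>
        rw [hq_mk, hq_mk, QuotientGroup.eq] at h
        rw [QuotientGroup.eq]
        have e : z₁⁻¹ * z₂ = φ ((φ.symm z₁)⁻¹ * φ.symm z₂) := by simp
        rw [e, hmem]
        exact h
  obtain ⟨g, hg⟩ := hB n (q ∘ I) (q ∘ J) hn (by
    intro i j hij
    obtain ⟨g', h1, h2⟩ := hp i j hij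
    refine ⟨φ.symm g', ?_, ?_⟩
    · simp only [Function.comp]
      rw [← hq_smul, h1]
    · simp only [Function.comp]
      rw [← hq_smul, h2])
  refine ⟨φ g, fun i => hq_inj ?_⟩
  rw [hq_smul]
  simpa using hg i

lemma Bin.conj {H : Subgroup G} (hB : Bin H) (c : G) : Bin (conjSub c H) :=
  hB.map_equiv (MulAut.conj c)

end Cfsg.Agent.Lib.Bin77
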