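import Mathlib
import Cfsg.Agent.Lib.Bin77.Basic
import Cfsg.Agent.Lib.DicksonTT

/-!
# Binary actions of `PSL₂`: subgroups containing unipotent elements
-/

set_option autoImplicit false
set_option linter.style.haveILetI false
set_option linter.unusedVariables false
set_option linter.unusedSectionVars false

namespace Cfsg.Agent.Lib.Bin77

open Matrix Subgroup
open Cfsg.Agent.Lib.SL2Core Cfsg.Agent.Lib.DicksonMat Cfsg.Agent.Lib.DicksonTT

variable {F : Type*} [Field F]

/-- Every element of `SL₂` is a product of unipotent elements. -/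
lemma eq_uu_vv_uu (A : SL2 F) (hc : ee A 1 0 ≠ 0) :
    A = uu ((ee A 0 0 - 1) / ee A 1 0) * vv (ee A 1 0) * uu ((ee A 1 1 - 1) / ee A 1 0) := by
  have hd := ee_det A
  apply ee_ext <;> simp only [ee_mul, uu00, uu01, uu10, uu11, vv00, vv01, vv10, vv11]
  · field_simp
    ring
  · field_simp
    linear_combination -hd
  · field_simp
    ring
  · field_simp
    ring

lemma top_of_uu_vv (K : Subgroup (SL2 F)) (hu : ∀ v, uu v ∈ K) (hv : ∀ v, vv v ∈ K) : K = ⊤ := by
  rw [eq_top_iff]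
  intro A _
  have key : ∀ B : SL2 F, ee B 1 0 ≠ 0 → B ∈ K := by
    intro B hB
    rw [eq_uu_vv_uu B hB]
    exact K.mul_mem (K.mul_mem (hu _) (hv _)) (hu _)
  by_cases hc : ee A 1 0 = 0
  · have hd := ee_det A
    rw [hc, mul_zero, sub_zero] at hd
    have h1 : ee (A * vv 1) 1 0 ≠ 0 := by
      simp only [ee_mul, vv00, vv10, hc, mul_one, zero_mul, zero_add]
      intro h
      rw [h, mul_zero] at hd
      exact zero_ne_one hd
    have h2 := key _ h1
    have h3 : A = (A * vv 1) * (vv 1)⁻¹ := by group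
    rw [h3]
    exact K.mul_mem h2 (K.inv_mem (hv 1))
  · exact key A hc

/-- A subgroup containing all `uu v` and a lower-nonzero element is everything. -/
lemma top_of_uu_lower (K : Subgroup (SL2 F)) (hu : ∀ v, uu v ∈ K) {M : SL2 F} (hM : M ∈ K)
    (hc : ee M 1 0 ≠ 0) : K = ⊤ := by
  apply top_of_uu_vv K hu
  set c := ee M 1 0 with hcdef
  have hd := ee_det M
  let w : SL2 F := uu (-(ee M 0 0) / c) * M * uu (-(ee M 1 1) / c)
  have hw : w ∈ K := K.mul_mem (K.mul_mem (hu _) hM) (hu _)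
  have hw00 : ee w 0 0 = 0 := by
    simp only [w, ee_mul, uu00, uu01, uu10, uu11, ← hcdef]
    field_simp
    ring
  have hw11 : ee w 1 1 = 0 := by
    simp only [w, ee_mul, uu00, uu01, uu10, uu11, ← hcdef]
    field_simp
    ring
  have hw10 : ee w 1 0 = c := by
    simp only [w, ee_mul, uu00, uu01, uu10, uu11, ← hcdef]
    ring
  have hwd := ee_det w
  rw [hw00, zero_mul, hw10] at hwd
  intro v
  have e : vv v = w * uu (-v / (c * c)) * w⁻¹ := by
    apply ee_ext <;> simp only [ee_mul, ee_inv00, ee_inv01, ee_inv10, ee_inv11, uu00, uu01, uu10, uu11,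
      vv00, vv01, vv10, vv11, hw00, hw11, hw10]
    · linear_combination -hwd
    · ring
    · field_simp
      ring
    · linear_combination -hwd
  rw [e]
  exact K.mul_mem (K.mul_mem hw (hu _)) (K.inv_mem hw)

/-- `D μ` = the diagonal element. -/
def dd (μ : F) (h : μ ≠ 0) : SL2 F := mk2 μ 0 0 μ⁻¹ (by field_simp; ring)

@[simp] lemma dd00 (μ : F) (h : μ ≠ 0) : ee (dd μ h) 0 0 = μ := rfl
@[simp] lemma dd01 (μ : F) (h : μ ≠ 0) : ee (dd μ h) 0 1 = 0 := rfl
@[simp] lemma dd10 (μ : F) (h : μ ≠ 0) : ee (dd μ h) 1 0 = 0 := rfl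
@[simp] lemma dd11 (μ : F) (h : μ ≠ 0) : ee (dd μ h) 1 1 = μ⁻¹ := rfl

/-- Lemma Q: an element all of whose `U`-conjugates lie in `H`, where `H` is proper and misses part
of `U`, is `± U`. -/
lemma lemmaQ (h4 : 4 ≤ Nat.card F) {H : Subgroup (SL2 F)} (hZ : center (SL2 F) ≤ H) (hH : H ≠ ⊤)
    (hU : ¬ ∀ v, uu v ∈ H) {f : SL2 F} (hf : ∀ v, uu (-v) * f * uu v ∈ H) :
    ee f 1 0 = 0 ∧ ee f 0 0 * ee f 0 0 = 1 := by
  have hfH : f ∈ H := by
    have := hf 0
    simpa [uu_zero] using this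
  have hc : ee f 1 0 = 0 := by
    by_contra hc
    haveI hs : IsSimpleGroup (PSL2 F) := Matrix.ProjectiveSpecialLinearGroup.rank_two_simple h4
    let S : Set (SL2 F) := Set.range (fun v : F => uu (-v) * f * uu v)
    let K : Subgroup (SL2 F) := Subgroup.closure S
    have hKH : K ≤ H := by
      rw [Subgroup.closure_le]
      rintro _ ⟨v, rfl⟩
      exact hf v
    have hfK : f ∈ K := by
      apply Subgroup.subset_closure
      exact ⟨0, by simp [uu_zero]⟩
    have hconj : ∀ (b : F), ∀ k ∈ K, uu b * k * (uu b)⁻¹ ∈ K := by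
      intro b k hk
      induction hk using Subgroup.closure_induction with
      | mem x hx =>
        obtain ⟨v, rfl⟩ := hx
        apply Subgroup.subset_closure
        refine ⟨v - b, ?_⟩
        simp only [← uu_neg, ← mul_assoc]
        have e1 : uu (-(v - b)) = uu b * uu (-v) := by rw [← uu_add]; congr 1; ring
        have e2 : uu (v - b) = uu v * uu (-b) := by rw [← uu_add]; congr 1; ring
        simp only [e1, e2, mul_assoc]
      | one => simp [K.one_mem]
      | mul x y _ _ hx hy =>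
        have : uu b * (x * y) * (uu b)⁻¹ = (uu b * x * (uu b)⁻¹) * (uu b * y * (uu b)⁻¹) := by group
        rw [this]
        exact K.mul_mem hx hy
      | inv x _ hx =>
        have : uu b * x⁻¹ * (uu b)⁻¹ = (uu b * x * (uu b)⁻¹)⁻¹ := by group
        rw [this]
        exact K.inv_mem hx
    have hnorm : ∀ b, uu b ∈ normalizer (K : Set (SL2 F)) := by
      intro b
      rw [mem_normalizer_iff]
      intro k
      constructor
      · exact hconj b k
      · intro hk
        have := hconj (-b) _ hk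
        have e : uu (-b) * (uu b * k * (uu b)⁻¹) * (uu (-b))⁻¹ = k := by
          rw [uu_neg]
          group
        rwa [e] at this
    have hfN : f ∈ normalizer (K : Set (SL2 F)) := Subgroup.le_normalizer hfK
    have htop : normalizer (K : Set (SL2 F)) = ⊤ := top_of_uu_lower _ hnorm hfN hc
    have hKnorm : K.Normal := Subgroup.normalizer_eq_top_iff.mp htop
    haveI := hKnorm
    have hmapnorm : (K.map (proj : SL2 F →* PSL2 F)).Normal :=
      Subgroup.Normal.map hKnorm _ proj_surjective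
    rcases hs.eq_bot_or_eq_top_of_normal _ hmapnorm with h | h
    · have h1 : proj f ∈ K.map (proj : SL2 F →* PSL2 F) := ⟨f, hfK, rfl⟩
      rw [h, Subgroup.mem_bot] at h1
      have h2 := center_of_proj_eq_one h1
      exact hc ((mem_center_iff'' f).mp h2).2.1
    · apply hH
      rw [eq_top_iff]
      intro A _
      have h1 : proj A ∈ K.map (proj : SL2 F →* PSL2 F) := by rw [h]; trivial
      obtain ⟨k, hk, hkA⟩ := h1
      have h2 : k⁻¹ * A ∈ center (SL2 F) := (proj_eq_proj_iff k A).mp hkA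
      have h3 : A = k * (k⁻¹ * A) := by group
      rw [h3]
      exact H.mul_mem (hKH hk) (hZ h2)
  refine ⟨hc, ?_⟩
  by_contra hs
  apply hU
  intro w
  have hs' : ee f 0 0 * ee f 0 0 - 1 ≠ 0 := sub_ne_zero.mpr hs
  have h1 : uu (-(w / (ee f 0 0 * ee f 0 0 - 1))) * f * uu (w / (ee f 0 0 * ee f 0 0 - 1)) * f⁻¹ ∈ H :=
    H.mul_mem (hf _) (H.inv_mem hfH)
  have h2 : uu (-(w / (ee f 0 0 * ee f 0 0 - 1))) * f * uu (w / (ee f 0 0 * ee f 0 0 - 1)) * f⁻¹ = uu w := by
    have e1 : f * uu (w / (ee f 0 0 * ee f 0 0 - 1)) * f⁻¹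
        = uu (ee f 0 0 * ee f 0 0 * (w / (ee f 0 0 * ee f 0 0 - 1))) := conj_upper_uu hc _
    rw [mul_assoc (uu _), mul_assoc (uu _)]
    rw [e1, ← uu_add]
    congr 1
    have e2 : -(w / (ee f 0 0 * ee f 0 0 - 1)) + ee f 0 0 * ee f 0 0 * (w / (ee f 0 0 * ee f 0 0 - 1))
        = (ee f 0 0 * ee f 0 0 - 1) * (w / (ee f 0 0 * ee f 0 0 - 1)) := by ring
    rw [e2, mul_div_cancel₀ _ hs']
  rwa [h2] at h1

/-- Elements of `H` are upper triangular if `H` contains `U` and is proper. -/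
lemma upper_of_U {H : Subgroup (SL2 F)} (hH : H ≠ ⊤) (hU : ∀ v, uu v ∈ H) {M : SL2 F} (hM : M ∈ H) :
    ee M 1 0 = 0 := by
  by_contra hc
  exact hH (top_of_uu_lower H hU hM hc)

/-- An upper triangular element whose top-left entry occurs in `H ⊇ U` lies in `H`. -/
lemma upper_mem {H : Subgroup (SL2 F)} (hU : ∀ v, uu v ∈ H) {M X : SL2 F} (hM : M ∈ H)
    (hM0 : ee M 1 0 = 0) (hX0 : ee X 1 0 = 0) (h : ee X 0 0 = ee M 0 0) : X ∈ H := by
  have hdM := ee_det M
  have hdX := ee_det X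
  rw [hM0, mul_zero, sub_zero] at hdM
  rw [hX0, mul_zero, sub_zero] at hdX
  have e : M⁻¹ * X = uu (ee (M⁻¹ * X) 0 1) := by
    apply ee_ext <;> simp only [ee_mul, ee_inv00, ee_inv01, ee_inv10, ee_inv11, uu00, uu01, uu10, uu11,
      hM0, hX0]
    · rw [h]
      linear_combination hdM
    · ring
    · rw [← h]
      linear_combination hdX
  have h3 : X = M * (M⁻¹ * X) := by group
  rw [h3, e]
  exact H.mul_mem hM (hU _)

/-- The Borel case: if `H ⊇ U` is proper and satisfies `Star`, then `H = U` in characteristic two. -/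
lemma borel_case {H : Subgroup (SL2 F)} (hZ : center (SL2 F) ≤ H) (hH : H ≠ ⊤) (hS : Star H)
    (hU : ∀ v, uu v ∈ H) : (2 : F) = 0 ∧ ∀ M ∈ H, ee M 0 0 = 1 := by
  have hup : ∀ {M : SL2 F}, M ∈ H → ee M 1 0 = 0 := fun hM => upper_of_U hH hU hM
  let J : SL2 F := mk2 0 (-1) 1 0 (by ring)
  obtain ⟨g, hg1, hg2⟩ := hS J
  have hJg := hup hg1
  have hg00 : ee g 0 0 = 0 := by
    simp only [J, ee_mul, ee_inv00, ee_inv01, ee_inv10, ee_inv11, ee_mk00, ee_mk01, ee_mk10, ee_mk11] at hJg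
    linear_combination -hJg
  set γ := ee g 1 0 with hγ
  set δ := ee g 1 1 with hδ
  have hdg := ee_det g
  rw [hg00, zero_mul, ← hγ] at hdg
  have hγ0 : γ ≠ 0 := by
    intro h
    rw [h, mul_zero] at hdg
    simp at hdg
  have hg01 : ee g 0 1 = -γ⁻¹ := by
    field_simp
    linear_combination -hdg
  -- main relation
  have rel : ∀ M ∈ H, ee M 0 0 * ee M 0 0 * γ + γ⁻¹ - ee M 0 0 * δ = 0 := by
    intro M hM
    set c := ee M 0 0 with hc
    have hM0 := hup hM
    have hdM := ee_det M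
    rw [hM0, mul_zero, sub_zero, ← hc] at hdM
    have hc0 : c ≠ 0 := left_ne_zero_of_mul_eq_one hdM
    have h11 : ee M 1 1 = c⁻¹ := by
      field_simp
      linear_combination hdM
    -- the element y
    let y : SL2 F := mk2 0 (-c) c⁻¹ 2 (by field_simp; ring)
    let x : SL2 F := mk2 (-c) (-1) 1 0 (by ring)
    have hy1 : J⁻¹ * y ∈ H := by
      apply upper_mem hU (H.inv_mem hM) (by
        rw [ee_inv10, hM0, neg_zero])
      · simp only [J, y, ee_mul, ee_inv00, ee_inv01, ee_inv10, ee_inv11, ee_mk00, ee_mk01, ee_mk10, ee_mk11]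
        ring
      · simp only [J, y, ee_mul, ee_inv00, ee_inv01, ee_inv10, ee_inv11, ee_mk00, ee_mk01, ee_mk10, ee_mk11]
        rw [h11]
        ring
    have hy2 : x⁻¹ * y * x ∈ H := by
      have e : x⁻¹ * y * x = uu (ee (x⁻¹ * y * x) 0 1) := by
        apply ee_ext <;> simp only [x, y, ee_mul, ee_inv00, ee_inv01, ee_inv10, ee_inv11, ee_mk00, ee_mk01,
          ee_mk10, ee_mk11, uu00, uu01, uu10, uu11] <;> field_simp <;> ring
      rw [e]
      exact hU _
    have h3 := hup (hg2 x y hy1 hy2)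
    simp only [x, ee_mul, ee_inv00, ee_inv01, ee_inv10, ee_inv11, ee_mk00, ee_mk01, ee_mk10, ee_mk11,
      hg00, hg01] at h3
    rw [← hγ, ← hδ] at h3
    linear_combination h3
  have h1 := rel 1 H.one_mem
  have e100 : ee (1 : SL2 F) 0 0 = 1 := by simp [ee_one]
  rw [e100] at h1
  have key : ∀ M ∈ H, ee M 0 0 = 1 ∨ ee M 0 0 * (γ * γ) = 1 := by
    intro M hM
    have h2 := rel M hM
    set c := ee M 0 0 with hc
    have h5 : (c - 1) * (c * (γ * γ) - 1) = 0 := by
      have h6 : γ * γ⁻¹ = 1 := mul_inv_cancel₀ hγ0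
      linear_combination γ * h2 - c * γ * h1 + (c - 1) * h6
    rcases mul_eq_zero.mp h5 with h | h
    · exact Or.inl (sub_eq_zero.mp h)
    · exact Or.inr (sub_eq_zero.mp h)
  -- the diagonal entry `γ` occurs in `H`
  have hγH : ee (J⁻¹ * g) 0 0 = γ := by
    simp only [J, ee_mul, ee_inv00, ee_inv01, ee_inv10, ee_inv11, ee_mk00, ee_mk01, ee_mk10, ee_mk11]
    ring
  have h20 : (2 : F) = 0 := by
    by_contra h2
    have hneg : negS (1 : SL2 F) ∈ H := hZ ((mem_center_iff'' _).mpr (by simp [ee_neg, ee_one]))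
    have hnegc : ee (negS (1 : SL2 F)) 0 0 = -1 := by simp [ee_neg, ee_one]
    have hγ2 : γ * γ = -1 := by
      rcases key _ hneg with h | h
      · rw [hnegc] at h
        exact absurd (by linear_combination -h) h2
      · rw [hnegc] at h
        linear_combination -h
    rcases key _ hg1 with h | h
    · rw [hγH] at h
      rw [h] at hγ2
      exact h2 (by linear_combination hγ2)
    · rw [hγH, hγ2] at h
      have h3 : γ = -1 := by linear_combination -h
      rw [h3] at hγ2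
      exact h2 (by linear_combination hγ2)
  refine ⟨h20, ?_⟩
  intro M hM
  by_contra hc
  have hc' := (key M hM).resolve_left hc
  have hMM : M * M ∈ H := H.mul_mem hM hM
  have hMM00 : ee (M * M) 0 0 = ee M 0 0 * ee M 0 0 := by
    have := hup hM
    simp only [ee_mul, this]
    ring
  rcases key _ hMM with h | h
  · rw [hMM00] at h
    apply hc
    have : (ee M 0 0 - 1) * (ee M 0 0 - 1) = 0 := by
      linear_combination h - (ee M 0 0 - 1) * h20
    have := mul_self_eq_zero.mp this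
    exact sub_eq_zero.mp this
  · rw [hMM00] at h
    apply hc
    have : ee M 0 0 * (ee M 0 0 * (γ * γ)) = ee M 0 0 := by rw [hc', mul_one]
    rw [← this]
    linear_combination h

/-- Core of the odd case: `vv c ∉ H` for `c = -4/b`, contradiction. -/
lemma unip_odd_core (h4 : 4 ≤ Nat.card F) (h2 : (2 : F) ≠ 0) {H : Subgroup (SL2 F)}
    (hZ : center (SL2 F) ≤ H) (hH : H ≠ ⊤) (hS : Star H) {b : F} (hb0 : b ≠ 0) (hb : uu b ∈ H)
    (hU : ¬ ∀ v, uu v ∈ H) (hc : vv (-4 / b) ∉ H) : False := by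
  set c := -4 / b with hcdef
  obtain ⟨g, hg1, hg2⟩ := hS (vv c)
  have hcb : c * b = -4 := by
    rw [hcdef]
    field_simp
  -- first witness
  let x₁ : SL2 F := mk2 0 (-(b / 2)) (2 / b) 0 (by field_simp; ring)
  have hx₁ : x₁⁻¹ * vv c * x₁ = uu b := by
    apply ee_ext <;> simp only [x₁, ee_mul, ee_inv00, ee_inv01, ee_inv10, ee_inv11, ee_mk00, ee_mk01,
      ee_mk10, ee_mk11, uu00, uu01, uu10, uu11, vv00, vv01, vv10, vv11, hcdef] <;> field_simp <;> ring
  have hf₁ : ∀ v, uu (-v) * (x₁⁻¹ * g * x₁) * uu v ∈ H := by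
    intro v
    have h := hg2 (x₁ * uu v) (vv c) (by simp [H.one_mem]) (by
      have e : (x₁ * uu v)⁻¹ * vv c * (x₁ * uu v) = uu (-v) * (x₁⁻¹ * vv c * x₁) * uu v := by
        rw [uu_neg]
        group
      rw [e, hx₁, ← uu_add, ← uu_add]
      have : -v + b + v = b := by ring
      rw [this]
      exact hb)
    have e : (x₁ * uu v)⁻¹ * g * (x₁ * uu v) = uu (-v) * (x₁⁻¹ * g * x₁) * uu v := by
      rw [uu_neg]
      group
    rwa [e] at h
  obtain ⟨h10, h00⟩ := lemmaQ h4 hZ hH hU hf₁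
  have hq : ee g 0 1 = 0 := by
    simp only [x₁, ee_mul, ee_inv00, ee_inv01, ee_inv10, ee_inv11, ee_mk00, ee_mk01,
      ee_mk10, ee_mk11] at h10
    have h3 : ee g 0 1 * (2 / b) * (2 / b) = 0 := by linear_combination -h10
    have h5 : (2 / b) ≠ 0 := div_ne_zero h2 hb0
    exact (mul_eq_zero.mp ((mul_eq_zero.mp h3).resolve_right h5)).resolve_right h5
  have hs : ee g 1 1 * ee g 1 1 = 1 := by
    simp only [x₁, ee_mul, ee_inv00, ee_inv01, ee_inv10, ee_inv11, ee_mk00, ee_mk01,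
      ee_mk10, ee_mk11] at h00
    have e : (0 : F) * 0 + -(-(b / 2)) * (2 / b) = 1 := by
      field_simp
      ring
    have e2 : (0 * ee g 0 0 + -(-(b / 2)) * ee g 1 0) * 0 + (0 * ee g 0 1 + -(-(b / 2)) * ee g 1 1) * (2 / b)
        = ee g 1 1 := by
      field_simp
      ring
    rwa [e2] at h00
  have hd := ee_det g
  rw [hq, zero_mul, sub_zero] at hd
  have hps : ee g 0 0 = ee g 1 1 := by
    have : ee g 0 0 = ee g 0 0 * (ee g 1 1 * ee g 1 1) := by rw [hs, mul_one]
    rw [this, ← mul_assoc, hd, one_mul]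
  -- second witness
  let x₂ : SL2 F := vv (-(2 / b))
  have hx₂ : x₂⁻¹ * (vv c * uu b) * x₂ = negS (uu (-b)) := by
    apply ee_ext <;> simp only [x₂, ee_mul, ee_inv00, ee_inv01, ee_inv10, ee_inv11, ee_neg,
      uu00, uu01, uu10, uu11, vv00, vv01, vv10, vv11, hcdef] <;> field_simp <;> ring
  have hnegM : negS (uu (-b)) ∈ H := by
    have e : negS (uu (-b)) = negS 1 * (uu b)⁻¹ := by
      rw [← uu_neg]
      apply ee_ext <;> simp [ee_mul, ee_neg, ee_one]
    rw [e]
    exact H.mul_mem (hZ ((mem_center_iff'' _).mpr (by simp [ee_neg, ee_one]))) (H.inv_mem hb)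
  have hf₂ : ∀ v, uu (-v) * (x₂⁻¹ * g * x₂) * uu v ∈ H := by
    intro v
    have h := hg2 (x₂ * uu v) (vv c * uu b) (by
      rw [inv_mul_cancel_left]
      exact hb) (by
      have e : (x₂ * uu v)⁻¹ * (vv c * uu b) * (x₂ * uu v) = uu (-v) * (x₂⁻¹ * (vv c * uu b) * x₂) * uu v := by
        rw [uu_neg]
        group
      rw [e, hx₂]
      have e2 : uu (-v) * negS (uu (-b)) * uu v = negS (uu (-b)) := by
        apply ee_ext <;> simp only [ee_mul, ee_neg, uu00, uu01, uu10, uu11] <;> ring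
      rw [e2]
      exact hnegM)
    have e : (x₂ * uu v)⁻¹ * g * (x₂ * uu v) = uu (-v) * (x₂⁻¹ * g * x₂) * uu v := by
      rw [uu_neg]
      group
    rwa [e] at h
  obtain ⟨h10', -⟩ := lemmaQ h4 hZ hH hU hf₂
  have hr : ee g 1 0 = 0 := by
    simp only [x₂, ee_mul, ee_inv00, ee_inv01, ee_inv10, ee_inv11, vv00, vv01, vv10, vv11, hq, hps] at h10'
    linear_combination h10'
  have hgc : g ∈ center (SL2 F) := (mem_center_iff'' g).mpr ⟨hq, hr, hps⟩
  apply hc
  have h6 : vv c = g * ((vv c)⁻¹ * g)⁻¹ := by group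
  rw [h6]
  exact H.mul_mem (hZ hgc) (H.inv_mem hg1)

/-- The odd characteristic case: `U` is all or nothing. -/
lemma unip_odd (h4 : 4 ≤ Nat.card F) (h2 : (2 : F) ≠ 0) {H : Subgroup (SL2 F)}
    (hZ : center (SL2 F) ≤ H) (hH : H ≠ ⊤) (hS : Star H) {b : F} (hb0 : b ≠ 0) (hb : uu b ∈ H)
    (hU : ¬ ∀ v, uu v ∈ H) : False := by
  -- a conjugate of `H` by `U` missing the relevant lower unipotent
  have hex : ∃ v₀, uu (-v₀) * vv (-4 / b) * uu v₀ ∉ H := by
    by_contra hall
    push Not at hall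
    have h3 := (lemmaQ h4 hZ hH hU hall).1
    simp only [vv10] at h3
    have h5 : (-4 : F) / b ≠ 0 := by
      apply div_ne_zero _ hb0
      have : (-4 : F) = -(2 * 2) := by norm_num
      rw [this]
      exact neg_ne_zero.mpr (mul_ne_zero h2 h2)
    exact h5 h3
  obtain ⟨v₀, hv₀⟩ := hex
  set H' := conjSub (uu v₀) H with hH'
  have hmem : ∀ z, z ∈ H' ↔ (uu v₀)⁻¹ * z * uu v₀ ∈ H := fun z => mem_conjSub
  have huu : ∀ v, uu v ∈ H' ↔ uu v ∈ H := by
    intro v
    rw [hmem]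
    have e : (uu v₀)⁻¹ * uu v * uu v₀ = uu v := by
      rw [← uu_neg, ← uu_add, ← uu_add]
      congr 1
      ring
    rw [e]
  refine unip_odd_core h4 h2 (H := H') ?_ ?_ (hS.conj _) hb0 ((huu b).mpr hb) ?_ ?_
  · intro z hz
    rw [hmem]
    have e : (uu v₀)⁻¹ * z * uu v₀ = z := by
      have := Subgroup.mem_center_iff.mp hz (uu v₀)
      rw [mul_assoc, ← this, inv_mul_cancel_left]
    rw [e]
    exact hZ hz
  · intro h
    apply hH
    rw [eq_top_iff]
    intro z _
    have h5 : uu v₀ * z * (uu v₀)⁻¹ ∈ H' := by rw [h]; trivial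
    rw [hmem] at h5
    have e : (uu v₀)⁻¹ * (uu v₀ * z * (uu v₀)⁻¹) * uu v₀ = z := by group
    rwa [e] at h5
  · intro h
    exact hU fun v => (huu v).mp (h v)
  · rw [hmem, ← uu_neg]
    exact hv₀

lemma dd_conj (μ : F) (h : μ ≠ 0) (v : F) : (dd μ h)⁻¹ * uu v * dd μ h = uu (v / (μ * μ)) := by
  apply ee_ext <;> simp only [ee_mul, ee_inv00, ee_inv01, ee_inv10, ee_inv11, dd00, dd01, dd10, dd11,
    uu00, uu01, uu10, uu11] <;> field_simp <;> ring

/-- Characteristic two: `T f` means `f W ⊆ W`. -/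
lemma unip_even_core [Finite F] (h4 : 4 ≤ Nat.card F) (h2 : (2 : F) = 0) {H : Subgroup (SL2 F)}
    (hZ : center (SL2 F) ≤ H) (hH : H ≠ ⊤) (hS : Star H) (hb : uu (1 : F) ∈ H)
    (hU : ¬ ∀ v, uu v ∈ H) : False := by
  classical
  push Not at hU
  obtain ⟨a₀, ha₀⟩ := hU
  have hU' : ¬ ∀ v, uu v ∈ H := fun h => ha₀ (h a₀)
  have hneg : ∀ v : F, -v = v := by
    intro v
    linear_combination (-v) * h2
  have hadd : ∀ {v w : F}, uu v ∈ H → uu w ∈ H → uu (v + w) ∈ H := by
    intro v w hv hw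
    rw [uu_add]
    exact H.mul_mem hv hw
  have h0 : uu (0 : F) ∈ H := by
    rw [uu_zero]
    exact H.one_mem
  have hsq : ∀ t : F, t ≠ 0 → ∃ μ : F, μ ≠ 0 ∧ μ * μ = t := by
    intro t ht
    haveI : Fintype F := Fintype.ofFinite F
    have hc : ringChar F = 2 := by
      have : CharP F 2 := CharTwo.of_one_ne_zero_of_two_eq_zero (R := F) one_ne_zero h2
      exact ringChar.eq F 2
    obtain ⟨μ, hμ⟩ := FiniteField.isSquare_of_char_two hc t
    refine ⟨μ, ?_, hμ.symm⟩
    rintro rfl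
    exact ht (by simpa using hμ)
  obtain ⟨g, hg1, hg2⟩ := hS (uu a₀)
  have hne : ∀ h, uu h ∈ H → a₀ + h ≠ 0 := by
    intro h hh he
    apply ha₀
    have : a₀ = h := by
      have h5 : a₀ = -h := eq_neg_of_add_eq_zero_left he
      rw [h5, hneg]
    rwa [this]
  have step : ∀ h w, uu h ∈ H → uu w ∈ H → w ≠ 0 →
      ∃ (μ : F) (hμ : μ ≠ 0), μ * μ = (a₀ + h) / w ∧
        (ee ((dd μ hμ)⁻¹ * g * dd μ hμ) 1 0 = 0 ∧
          ee ((dd μ hμ)⁻¹ * g * dd μ hμ) 0 0 * ee ((dd μ hμ)⁻¹ * g * dd μ hμ) 0 0 = 1) ∧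
        (dd μ hμ)⁻¹ * g * dd μ hμ ∈ H := by
    intro h w hh hw hw0
    obtain ⟨μ, hμ, hμ2⟩ := hsq ((a₀ + h) / w) (div_ne_zero (hne h hh) hw0)
    refine ⟨μ, hμ, hμ2, ?_⟩
    have hf : ∀ v, uu (-v) * ((dd μ hμ)⁻¹ * g * dd μ hμ) * uu v ∈ H := by
      intro v
      have h3 := hg2 (dd μ hμ * uu v) (uu (a₀ + h)) (by
        rw [uu_add, inv_mul_cancel_left]
        exact hh) (by
        have e : (dd μ hμ * uu v)⁻¹ * uu (a₀ + h) * (dd μ hμ * uu v)
            = uu (-v) * ((dd μ hμ)⁻¹ * uu (a₀ + h) * dd μ hμ) * uu v := by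
          rw [uu_neg]
          group
        rw [e, dd_conj, ← uu_add, ← uu_add, hμ2]
        have e2 : -v + (a₀ + h) / ((a₀ + h) / w) + v = w := by
          have := hne h hh
          field_simp
          ring
        rw [e2]
        exact hw)
      have e : (dd μ hμ * uu v)⁻¹ * g * (dd μ hμ * uu v) = uu (-v) * ((dd μ hμ)⁻¹ * g * dd μ hμ) * uu v := by
        rw [uu_neg]
        group
      rwa [e] at h3
    refine ⟨lemmaQ h4 hZ hH hU' hf, ?_⟩
    have := hf 0
    simpa [uu_zero] using this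
  -- `g` is unipotent
  have hg : ∃ g₀, g = uu g₀ := by
    obtain ⟨μ, hμ, hμ2, ⟨h10, h00⟩, -⟩ := step 0 1 h0 hb one_ne_zero
    have hp : ee g 0 0 = 1 := by
      simp only [ee_mul, ee_inv00, ee_inv01, ee_inv10, ee_inv11, dd00, dd01, dd10, dd11] at h00
      have e : (μ⁻¹ * ee g 0 0 + -0 * ee g 1 0) * μ + (μ⁻¹ * ee g 0 1 + -0 * ee g 1 1) * 0 = ee g 0 0 := by
        field_simp
        ring
      rw [e] at h00
      have h5 : (ee g 0 0 - 1) * (ee g 0 0 - 1) = 0 := by
        linear_combination h00 - (ee g 0 0 - 1) * h2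
      exact sub_eq_zero.mp (mul_self_eq_zero.mp h5)
    have hr : ee g 1 0 = 0 := by
      simp only [ee_mul, ee_inv00, ee_inv01, ee_inv10, ee_inv11, dd00, dd01, dd10, dd11] at h10
      have e : (-0 * ee g 0 0 + μ * ee g 1 0) * μ + (-0 * ee g 0 1 + μ * ee g 1 1) * 0 = ee g 1 0 * (μ * μ) := by
        ring
      rw [e] at h10
      exact (mul_eq_zero.mp h10).resolve_right (mul_ne_zero hμ hμ)
    have hd := ee_det g
    rw [hr, hp] at hd
    refine ⟨ee g 0 1, ?_⟩
    apply ee_ext <;> simp only [uu00, uu01, uu10, uu11, hp, hr]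
    linear_combination hd
  obtain ⟨g₀, rfl⟩ := hg
  -- membership of scaled elements
  have hstep : ∀ h w, uu h ∈ H → uu w ∈ H → w ≠ 0 → uu (g₀ / ((a₀ + h) / w)) ∈ H := by
    intro h w hh hw hw0
    obtain ⟨μ, hμ, hμ2, -, h5⟩ := step h w hh hw hw0
    rwa [dd_conj, hμ2] at h5
  have hsum : uu (g₀ + a₀) ∈ H := by
    have e : (uu a₀)⁻¹ * uu g₀ = uu (g₀ + a₀) := by
      rw [← uu_neg, ← uu_add, hneg, add_comm]
    rwa [e] at hg1
  have hg₀W : uu g₀ ∉ H := by
    intro h
    apply ha₀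
    have e : a₀ = (g₀ + a₀) + g₀ := by linear_combination -g₀ * h2
    rw [e]
    exact hadd hsum h
  have hg₀0 : g₀ ≠ 0 := by
    rintro rfl
    exact hg₀W h0
  have hg₀1 : g₀ + 1 ≠ 0 := by
    intro h
    apply hg₀W
    have e : g₀ = 1 := by linear_combination h - h2
    rwa [e]
  -- the multiplier calculus
  let T : F → Prop := fun f => ∀ w, uu w ∈ H → uu (f * w) ∈ H
  have hTinv : ∀ f, f ≠ 0 → T f → T f⁻¹ := by
    intro f hf hT w hw
    let φ : {w // uu w ∈ H} → {w // uu w ∈ H} := fun z => ⟨f * z.1, hT z.1 z.2⟩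
    have hinj : Function.Injective φ := by
      intro z₁ z₂ hz
      have : f * z₁.1 = f * z₂.1 := congrArg Subtype.val hz
      exact Subtype.ext (mul_left_cancel₀ hf this)
    obtain ⟨z, hz⟩ := (Finite.injective_iff_surjective.mp hinj) ⟨w, hw⟩
    have h5 : f * z.1 = w := congrArg Subtype.val hz
    have h6 : f⁻¹ * w = z.1 := by
      rw [← h5]
      field_simp
    rw [h6]
    exact z.2
  have hT0 : T (g₀ / (g₀ + 1)) := by
    intro w hw
    by_cases hw0 : w = 0
    · rw [hw0, mul_zero]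
      exact h0
    · have h5 := hstep ((g₀ + a₀) + 1) w (hadd hsum hb) hw hw0
      have e : g₀ / ((a₀ + (g₀ + a₀ + 1)) / w) = g₀ / (g₀ + 1) * w := by
        have e2 : a₀ + (g₀ + a₀ + 1) = g₀ + 1 := by linear_combination a₀ * h2
        rw [e2]
        field_simp
      rwa [e] at h5
  have hT1 := hTinv _ (div_ne_zero hg₀0 hg₀1) hT0
  have hT2 : T g₀⁻¹ := by
    intro w hw
    have h5 := hadd (hT1 w hw) hw
    have e : (g₀ / (g₀ + 1))⁻¹ * w + w = g₀⁻¹ * w := by
      field_simp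
      linear_combination g₀ * w * h2
    rwa [e] at h5
  have hT3 := hTinv _ (inv_ne_zero hg₀0) hT2
  have h5 := hT3 1 hb
  rw [inv_inv, mul_one] at h5
  exact hg₀W h5

/-- The even characteristic case, scaling to `uu 1`. -/
lemma unip_even [Finite F] (h4 : 4 ≤ Nat.card F) (h2 : (2 : F) = 0) {H : Subgroup (SL2 F)}
    (hZ : center (SL2 F) ≤ H) (hH : H ≠ ⊤) (hS : Star H) {b : F} (hb0 : b ≠ 0) (hb : uu b ∈ H)
    (hU : ¬ ∀ v, uu v ∈ H) : False := by
  classical
  have hsq : ∃ μ : F, μ ≠ 0 ∧ μ * μ = b⁻¹ := by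
    haveI : Fintype F := Fintype.ofFinite F
    have hc : ringChar F = 2 := by
      have : CharP F 2 := CharTwo.of_one_ne_zero_of_two_eq_zero (R := F) one_ne_zero h2
      exact ringChar.eq F 2
    obtain ⟨μ, hμ⟩ := FiniteField.isSquare_of_char_two hc b⁻¹
    refine ⟨μ, ?_, hμ.symm⟩
    rintro rfl
    exact inv_ne_zero hb0 (by simpa using hμ)
  obtain ⟨μ, hμ, hμ2⟩ := hsq
  set H' := conjSub (dd μ hμ) H with hH'
  have hmem : ∀ z, z ∈ H' ↔ (dd μ hμ)⁻¹ * z * dd μ hμ ∈ H := fun z => mem_conjSub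
  have huu : ∀ v, uu v ∈ H' ↔ uu (v / (μ * μ)) ∈ H := by
    intro v
    rw [hmem, dd_conj]
  refine unip_even_core h4 h2 (H := H') ?_ ?_ (hS.conj _) ?_ ?_
  · intro z hz
    rw [hmem]
    have e : (dd μ hμ)⁻¹ * z * dd μ hμ = z := by
      have := Subgroup.mem_center_iff.mp hz (dd μ hμ)
      rw [mul_assoc, ← this, inv_mul_cancel_left]
    rw [e]
    exact hZ hz
  · intro h
    apply hH
    rw [eq_top_iff]
    intro z _
    have h5 : dd μ hμ * z * (dd μ hμ)⁻¹ ∈ H' := by rw [h]; trivial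
    rw [hmem] at h5
    have e : (dd μ hμ)⁻¹ * (dd μ hμ * z * (dd μ hμ)⁻¹) * dd μ hμ = z := by group
    rwa [e] at h5
  · rw [huu, hμ2]
    simpa using hb
  · intro h
    apply hU
    intro v
    have h5 := (huu (v * (μ * μ))).mp (h _)
    have e : v * (μ * μ) / (μ * μ) = v := by field_simp
    rwa [e] at h5

/-- Case A: a noncentral element with trace `± 2` forces `H` to be a conjugate of `U`,
in characteristic two. -/
theorem caseA [Finite F] (h4 : 4 ≤ Nat.card F) {H : Subgroup (SL2 F)}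
    (hZ : center (SL2 F) ≤ H) (hH : H ≠ ⊤) (hS : Star H) {A : SL2 F} (hA : A ∈ H)
    (hAc : A ∉ center (SL2 F)) (ht : tr A * tr A = 4) :
    (2 : F) = 0 ∧ ∃ c : SL2 F, ∀ M : SL2 F, M ∈ conjSub c H ↔ ∃ v, M = uu v := by
  obtain ⟨g₀, X, hg₀, h10, h00, h01⟩ := exists_upper hAc ht
  have hXe : X = g₀⁻¹ * A * g₀ := by
    rw [mul_assoc, hg₀, inv_mul_cancel_left]
  set c : SL2 F := g₀⁻¹ with hc
  set H' := conjSub c H with hH'
  have hmem : ∀ z, z ∈ H' ↔ c⁻¹ * z * c ∈ H := fun z => mem_conjSub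
  have hZ' : center (SL2 F) ≤ H' := by
    intro z hz
    rw [hmem]
    have e : c⁻¹ * z * c = z := by
      have := Subgroup.mem_center_iff.mp hz c
      rw [mul_assoc, ← this, inv_mul_cancel_left]
    rw [e]
    exact hZ hz
  have hH'top : H' ≠ ⊤ := by
    intro h
    apply hH
    rw [eq_top_iff]
    intro z _
    have h5 : c * z * c⁻¹ ∈ H' := by rw [h]; trivial
    rw [hmem] at h5
    have e : c⁻¹ * (c * z * c⁻¹) * c = z := by group
    rwa [e] at h5
  have hS' : Star H' := hS.conj _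
  have hX : X ∈ H' := by
    rw [hmem, hXe, hc, inv_inv]
    have e : g₀ * (g₀⁻¹ * A * g₀) * g₀⁻¹ = A := by group
    rw [e]
    exact hA
  -- normalise the sign
  have hdX := ee_det X
  have hUel : ∃ b, b ≠ 0 ∧ uu b ∈ H' := by
    have hsq : ee X 0 0 * ee X 0 0 = 1 := by
      rw [h10, mul_zero, sub_zero, ← h00] at hdX
      exact hdX
    have hsq' : (ee X 0 0 - 1) * (ee X 0 0 + 1) = 0 := by linear_combination hsq
    rcases mul_eq_zero.mp hsq' with h | h
    · have h1 : ee X 0 0 = 1 := sub_eq_zero.mp h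
      refine ⟨ee X 0 1, h01, ?_⟩
      have e : uu (ee X 0 1) = X := by
        apply ee_ext <;> simp only [uu00, uu01, uu10, uu11, h1, h10, ← h00]
      rw [e]
      exact hX
    · have h1 : ee X 0 0 = -1 := by linear_combination h
      refine ⟨-(ee X 0 1), neg_ne_zero.mpr h01, ?_⟩
      have e : uu (-(ee X 0 1)) = negS 1 * X := by
        apply ee_ext <;> simp only [uu00, uu01, uu10, uu11, ee_mul, ee_neg, ee_one, h1, h10, ← h00] <;> simp
      rw [e]
      exact H'.mul_mem (hZ' ((mem_center_iff'' _).mpr (by simp [ee_neg, ee_one]))) hX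
  obtain ⟨b, hb0, hb⟩ := hUel
  have hU : ∀ v, uu v ∈ H' := by
    by_contra hU
    by_cases h2 : (2 : F) = 0
    · exact unip_even h4 h2 hZ' hH'top hS' hb0 hb hU
    · exact unip_odd h4 h2 hZ' hH'top hS' hb0 hb hU
  obtain ⟨h2, hall⟩ := borel_case hZ' hH'top hS' hU
  refine ⟨h2, c, ?_⟩
  intro M
  constructor
  · intro hM
    have hM0 := upper_of_U hH'top hU hM
    have hM1 := hall M hM
    have hdM := ee_det M
    rw [hM0, mul_zero, sub_zero, hM1, one_mul] at hdM
    refine ⟨ee M 0 1, ?_⟩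
    apply ee_ext <;> simp only [uu00, uu01, uu10, uu11, hM0, hM1, hdM]
  · rintro ⟨v, rfl⟩
    exact hU v

end Cfsg.Agent.Lib.Bin77
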