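import Mathlib
import Cfsg.Agent.Lib.Bin77.Uni

/-!
# Binary actions of `PSL₂`: subgroups inside a torus
-/

set_option autoImplicit false
set_option linter.style.haveILetI false
set_option linter.unusedVariables false
set_option linter.unusedSectionVars false

namespace Cfsg.Agent.Lib.Bin77

open Matrix Subgroup
open Cfsg.Agent.Lib.SL2Core Cfsg.Agent.Lib.DicksonMat Cfsg.Agent.Lib.DicksonTT

variable {F : Type*} [Field F]

lemma not_center_of_tr {A : SL2 F} (h : tr A * tr A ≠ 4) : A ∉ center (SL2 F) :=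
  fun hc => h (central_tr A hc)

/-- The key step: inside a torus, an element `a` such that `a` and `a z` are conjugate to `z` must
commute with `z`. -/
lemma comm_of_star [Fintype F] {H : Subgroup (SL2 F)} (hZ : center (SL2 F) ≤ H) (hS : Star H)
    {z : SL2 F} (hz : z ∈ H) (ht : tr z * tr z ≠ 4) (hT : ∀ x ∈ H, x * z = z * x)
    {a : SL2 F} (h1 : tr a = tr z) (h2 : tr (a * z) = tr z) : a * z = z * a := by
  have hzc := not_center_of_tr ht
  obtain ⟨g, hg1, hg2⟩ := hS a
  have key : ∀ y : SL2 F, a⁻¹ * y ∈ H → tr y = tr z → g * y = y * g := by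
    intro y hy hyt
    have hyc : y ∉ center (SL2 F) := not_center_of_tr (by rw [hyt]; exact ht)
    obtain ⟨U, hU⟩ := exists_conj y z hyc hzc hyt (by rw [hyt]; exact ht)
    have h3 : U⁻¹⁻¹ * y * U⁻¹ ∈ H := by
      rw [inv_inv, hU]
      exact hz
    have h4 := hT _ (hg2 U⁻¹ y hy h3)
    rw [inv_inv, ← hU] at h4
    have e1 : U * g * U⁻¹ * (U * y * U⁻¹) = U * (g * y) * U⁻¹ := by
      simp only [mul_assoc, inv_mul_cancel_left]
    have e2 : U * y * U⁻¹ * (U * g * U⁻¹) = U * (y * g) * U⁻¹ := by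
      simp only [mul_assoc, inv_mul_cancel_left]
    rw [e1, e2] at h4
    exact mul_left_cancel (mul_right_cancel h4)
  by_cases hgc : g ∈ center (SL2 F)
  · have h3 : a ∈ H := by
      have e : a = g * (a⁻¹ * g)⁻¹ := by group
      rw [e]
      exact H.mul_mem (hZ hgc) (H.inv_mem hg1)
    exact hT a h3
  · have h3 := key a (by simp [H.one_mem]) h1
    have h4 := key (a * z) (by simpa using hz) h2
    have h5 := comm_of_comm g a (a * z) hgc h3.symm h4.symm
    -- `a` commutes with `a * z`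
    have h6 : a * (a * z) = a * z * a := h5.symm
    rw [mul_assoc] at h6
    exact mul_left_cancel h6

/-- Algebra: the two possible traces in odd characteristic. -/
lemma tr_rel_odd (h2 : (2 : F) ≠ 0) {A B : SL2 F} (hA : A ∉ center (SL2 F)) (hc : A * B = B * A)
    {τ : F} (h1 : tr A = τ) (h3 : tr B = τ) (h4 : tr (A * B) = τ) :
    (τ + 2) * ((τ - 2) * (τ + 1)) = 0 := by
  obtain ⟨α, β, hl⟩ := exists_linear A B hA hc.symm
  have hB00 := hl 0 0
  have hB01 := hl 0 1
  have hB10 := hl 1 0
  have hB11 := hl 1 1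
  simp only [if_true, if_false, mul_one, mul_zero, zero_add, Fin.isValue, zero_ne_one, one_ne_zero] at hB00 hB01 hB10 hB11
  have hdA := ee_det A
  have hdB := ee_det B
  rw [ee_tr] at h1 h3 h4
  simp only [ee_mul] at h4
  rw [hB00, hB01, hB10, hB11] at h4
  rw [hB00, hB01, hB10, hB11] at hdB
  rw [hB00, hB11] at h3
  have E1 : 2 * α + β * τ - τ = 0 := by
    rw [← h1] at h3 ⊢
    linear_combination h3
  have E3 : α * τ + β * τ * τ - 2 * β - τ = 0 := by
    rw [← h1] at h4 ⊢
    linear_combination h4 + 2 * β * hdA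
  have E2 : α * α + α * β * τ + β * β - 1 = 0 := by
    rw [← h1]
    linear_combination hdB - β * β * hdA
  -- 2 E3 - τ E1 = (τ - 2)(β (τ + 2) + τ)
  by_cases h5 : τ - 2 = 0
  · rw [h5]
    ring
  have E4 : β * (τ + 2) + τ = 0 := by
    have : (τ - 2) * (β * (τ + 2) + τ) = 0 := by linear_combination 2 * E3 - τ * E1
    exact (mul_eq_zero.mp this).resolve_left h5
  have E5 : α * (τ + 2) - τ * τ - τ = 0 := by
    have : 2 * (α * (τ + 2) - τ * τ - τ) = 0 := by
      linear_combination (τ + 2) * E1 - τ * E4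
    exact (mul_eq_zero.mp this).resolve_left h2
  have E6 : (τ + 2) * (τ + 2) * (α * α + α * β * τ + β * β - 1)
      = (τ + 2) * ((τ - 2) * (τ + 1)) := by
    have a1 : α * (τ + 2) = τ * τ + τ := by linear_combination E5
    have b1 : β * (τ + 2) = -τ := by linear_combination E4
    calc (τ + 2) * (τ + 2) * (α * α + α * β * τ + β * β - 1)
        = (α * (τ + 2)) * (α * (τ + 2)) + (α * (τ + 2)) * (β * (τ + 2)) * τ
          + (β * (τ + 2)) * (β * (τ + 2)) - (τ + 2) * (τ + 2) := by ring
      _ = _ := by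
        rw [a1, b1]
        ring
  rw [← E6, E2, mul_zero]

/-- Algebra in characteristic two. -/
lemma tr_rel_even (h2 : (2 : F) = 0) {A B : SL2 F} (hA : A ∉ center (SL2 F)) (hc : A * B = B * A)
    {τ : F} (h1 : tr A = τ) (h3 : tr B = τ) (h4 : tr (A * B) = τ) (h0 : τ ≠ 0) : τ = 1 := by
  obtain ⟨α, β, hl⟩ := exists_linear A B hA hc.symm
  have hB00 := hl 0 0
  have hB01 := hl 0 1
  have hB10 := hl 1 0
  have hB11 := hl 1 1
  simp only [if_true, if_false, mul_one, mul_zero, zero_add, Fin.isValue, zero_ne_one, one_ne_zero] at hB00 hB01 hB10 hB11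
  have hdA := ee_det A
  have hdB := ee_det B
  rw [ee_tr] at h1 h3 h4
  simp only [ee_mul] at h4
  rw [hB00, hB01, hB10, hB11] at h4
  rw [hB00, hB01, hB10, hB11] at hdB
  rw [hB00, hB11] at h3
  have E1 : 2 * α + β * τ - τ = 0 := by
    rw [← h1] at h3 ⊢
    linear_combination h3
  have E3 : α * τ + β * τ * τ - 2 * β - τ = 0 := by
    rw [← h1] at h4 ⊢
    linear_combination h4 + 2 * β * hdA
  have E2 : α * α + α * β * τ + β * β - 1 = 0 := by
    rw [← h1]
    linear_combination hdB - β * β * hdA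
  have hβ : β = 1 := by
    have : τ * (β - 1) = 0 := by linear_combination E1 - α * h2
    exact sub_eq_zero.mp ((mul_eq_zero.mp this).resolve_left h0)
  rw [hβ] at E2 E3
  have hα : α + τ - 1 = 0 := by
    have : τ * (α + τ - 1) = 0 := by linear_combination E3 + h2
    exact (mul_eq_zero.mp this).resolve_left h0
  have hα0 : α = 0 := by linear_combination E2 - α * hα
  rw [hα0] at hα
  linear_combination hα

/-- Lemma M, odd characteristic. -/
lemma lemmaM_odd [Fintype F] (h2 : (2 : F) ≠ 0) {H : Subgroup (SL2 F)} (hZ : center (SL2 F) ≤ H)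
    (hS : Star H) {z : SL2 F} (hz : z ∈ H) (ht : tr z * tr z ≠ 4) (h0 : tr z ≠ 0)
    (hT : ∀ x ∈ H, x * z = z * x) : False := by
  classical
  -- replace `z` by `-z` if the trace is `-1`
  have hsign : ∃ z' : SL2 F, z' ∈ H ∧ tr z' * tr z' ≠ 4 ∧ tr z' ≠ 0 ∧ tr z' + 1 ≠ 0 ∧
      ∀ x ∈ H, x * z' = z' * x := by
    by_cases h1 : tr z + 1 = 0
    · refine ⟨negS z, ?_, ?_, ?_, ?_, ?_⟩
      · have e : negS z = negS 1 * z := by
          apply ee_ext <;> simp [ee_mul, ee_neg, ee_one]
        rw [e]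
        exact H.mul_mem (hZ ((mem_center_iff'' _).mpr (by simp [ee_neg, ee_one]))) hz
      · rw [tr_negS, neg_mul_neg]
        exact ht
      · rw [tr_negS]
        exact neg_ne_zero.mpr h0
      · rw [tr_negS]
        intro h3
        apply h2
        linear_combination h3 + h1
      · intro x hx
        exact (comm_negS_iff z x).mpr (hT x hx)
    · exact ⟨z, hz, ht, h0, h1, hT⟩
  obtain ⟨z, hz, ht, h0, h1, hT⟩ := hsign
  have hzc := not_center_of_tr ht
  have hc : ringChar F ≠ 2 := by
    intro h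
    have : CharP F 2 := by
      rw [← h]
      exact ringChar.charP F
    exact h2 (by exact_mod_cast CharP.cast_eq_zero F 2)
  have hs : tr z ≠ 2 := by
    intro h
    apply ht
    rw [h]
    norm_num
  obtain ⟨a, c, hconic⟩ := conic_point_odd hc (tr z) (tr z) hs h0
  obtain ⟨A, B, hA, hB, hAB⟩ := exists_product z hzc (tr z) a c hconic
  have hAc : A ∉ center (SL2 F) := not_center_of_tr (by rw [hA]; exact ht)
  have htrinv : tr A⁻¹ = tr A := by
    rw [ee_tr, ee_tr, ee_inv00, ee_inv11, add_comm]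
  have h3 := comm_of_star hZ hS hz ht hT (a := A⁻¹) (by rw [htrinv, hA]) (by
    rw [← hAB, inv_mul_cancel_left, hB, hAB])
  -- `A⁻¹` commutes with `z`, so `A` commutes with `B`
  have h4 : A * B = B * A := by
    have h5 : A⁻¹ * (A * B) = A * B * A⁻¹ := by
      rw [hAB]
      exact h3
    rw [inv_mul_cancel_left] at h5
    calc A * B = A * B * A⁻¹ * A := by simp
      _ = B * A := by rw [← h5]
  have h5 := tr_rel_odd h2 hAc h4 hA hB (by rw [hAB])
  rcases mul_eq_zero.mp h5 with h6 | h6
  · apply ht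
    have : tr z = -2 := by linear_combination h6
    rw [this]
    norm_num
  · rcases mul_eq_zero.mp h6 with h7 | h7
    · exact hs (sub_eq_zero.mp h7)
    · exact h1 h7

/-- Lemma M, even characteristic. -/
lemma lemmaM_even [Fintype F] (h2 : (2 : F) = 0) {H : Subgroup (SL2 F)} (hZ : center (SL2 F) ≤ H)
    (hS : Star H) {z : SL2 F} (hz : z ∈ H) (ht : tr z ≠ 0) (hT : ∀ x ∈ H, x * z = z * x) :
    tr z = 1 := by
  classical
  have ht4 : tr z * tr z ≠ 4 := by
    have e4 : (4 : F) = 0 := by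
      have : (4 : F) = 2 * 2 := by norm_num
      rw [this, h2, mul_zero]
    rw [e4]
    exact mul_ne_zero ht ht
  have hzc := not_center_of_tr ht4
  have hc : ringChar F = 2 := by
    have : CharP F 2 := CharTwo.of_one_ne_zero_of_two_eq_zero (R := F) one_ne_zero h2
    exact ringChar.eq F 2
  obtain ⟨a, c, hconic⟩ := conic_point_even hc (tr z) (tr z) ht
  obtain ⟨A, B, hA, hB, hAB⟩ := exists_product z hzc (tr z) a c hconic
  have hAc : A ∉ center (SL2 F) := not_center_of_tr (by rw [hA]; exact ht4)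
  have htrinv : tr A⁻¹ = tr A := by
    rw [ee_tr, ee_tr, ee_inv00, ee_inv11, add_comm]
  have h3 := comm_of_star hZ hS hz ht4 hT (a := A⁻¹) (by rw [htrinv, hA]) (by
    rw [← hAB, inv_mul_cancel_left, hB, hAB])
  have h4 : A * B = B * A := by
    have h5 : A⁻¹ * (A * B) = A * B * A⁻¹ := by
      rw [hAB]
      exact h3
    rw [inv_mul_cancel_left] at h5
    calc A * B = A * B * A⁻¹ * A := by simp
      _ = B * A := by rw [← h5]
  exact tr_rel_even h2 hAc h4 hA hB (by rw [hAB]) ht

/-- In even characteristic with a cube root of unity, trace one is impossible as well. -/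
lemma no_trace_one [Fintype F] (h2 : (2 : F) = 0) {ω : F} (hω : ω * ω + ω + 1 = 0)
    {H : Subgroup (SL2 F)} (hZ : center (SL2 F) ≤ H)
    (hS : Star H) {z : SL2 F} (hz : z ∈ H) (ht : tr z = 1) (hT : ∀ x ∈ H, x * z = z * x) : False := by
  have hω0 : ω ≠ 0 := by
    rintro rfl
    simp at hω
  have ht4 : tr z * tr z ≠ 4 := by
    have e4 : (4 : F) = 0 := by
      have : (4 : F) = 2 * 2 := by norm_num
      rw [this, h2, mul_zero]
    rw [e4, ht]
    simp
  have hzc := not_center_of_tr ht4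
  -- `D = diag(ω, ω²)`
  have hdet1 : ω * (ω * ω) - 0 * 0 = 1 := by
    linear_combination (ω - 1) * hω
  let D : SL2 F := mk2 ω 0 0 (ω * ω) hdet1
  have hDtr : tr D = 1 := by
    rw [ee_tr]
    simp only [D, ee_mk00, ee_mk11]
    linear_combination hω - h2
  have hDtr4 : tr D * tr D ≠ 4 := by
    rw [hDtr, ← ht]
    exact ht4
  have hDc := not_center_of_tr hDtr4
  obtain ⟨U, hU⟩ := exists_conj z D hzc hDc (by rw [ht, hDtr]) ht4
  -- conjugate `H` so that `D ∈ H`
  set H' := conjSub U H with hH'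
  have hmem : ∀ y, y ∈ H' ↔ U⁻¹ * y * U ∈ H := fun y => mem_conjSub
  have hDH : D ∈ H' := by
    rw [hmem, ← hU]
    have e : U⁻¹ * (U * z * U⁻¹) * U = z := by group
    rw [e]
    exact hz
  have hZ' : center (SL2 F) ≤ H' := by
    intro y hy
    rw [hmem]
    have e : U⁻¹ * y * U = y := by
      have := Subgroup.mem_center_iff.mp hy U
      rw [mul_assoc, ← this, inv_mul_cancel_left]
    rw [e]
    exact hZ hy
  have hT' : ∀ x ∈ H', x * D = D * x := by
    intro x hx
    rw [hmem] at hx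
    have h3 := hT _ hx
    rw [← hU]
    have e1 : x * (U * z * U⁻¹) = U * ((U⁻¹ * x * U) * z) * U⁻¹ := by group
    have e2 : U * z * U⁻¹ * x = U * (z * (U⁻¹ * x * U)) * U⁻¹ := by group
    rw [e1, e2, h3]
  -- the witness
  have hdet2 : ω * (ω * ω) - 1 * 0 = 1 := by
    linear_combination (ω - 1) * hω
  let a : SL2 F := mk2 ω 1 0 (ω * ω) hdet2
  have h3 := comm_of_star hZ' (hS.conj U) hDH hDtr4 hT' (a := a) (by
    rw [hDtr, ee_tr]
    simp only [a, ee_mk00, ee_mk11]
    linear_combination hω - h2) (by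
    rw [hDtr, ee_tr]
    simp only [a, D, ee_mul, ee_mk00, ee_mk01, ee_mk10, ee_mk11]
    linear_combination (ω * ω - ω + 1) * hω - h2)
  have h4 := congrArg (fun M => ee M 0 1) h3
  simp only [a, D, ee_mul, ee_mk00, ee_mk01, ee_mk10, ee_mk11] at h4
  have h5 : ω * (ω + 1) = 0 := by
    linear_combination h4 + ω * h2
  rcases mul_eq_zero.mp h5 with h6 | h6
  · exact hω0 h6
  · rw [show ω = -1 by linear_combination h6] at hω
    apply one_ne_zero (α := F)
    linear_combination hω

end Cfsg.Agent.Lib.Bin77
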